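import Cfsg.Agent.Lib.CCZ.Basic

/-!
# Counting involutions in the cosets of a large TI-subgroup
-/

set_option autoImplicit false
set_option linter.unusedSectionVars false

namespace CfsgLib.CCZ

open Cfsg CfsgLib.BG CfsgLib.BSW CfsgLib.Invol Subgroup

variable {G : Type*} [Group G] [Finite G] {M : Subgroup G} {z t u a g x y : G}

/-- A TI-subgroup inverted by the involution `z`. -/
structure Lg (M : Subgroup G) (z : G) : Prop where
  ti : ∀ x ∈ M, x ≠ 1 → ∀ g, g * x * g⁻¹ ∈ M → g ∈ 𝒩(M)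
  hz : orderOf z = 2
  zN : z ∈ 𝒩(M)
  fac : M ⊔ 𝒩(M) ⊓ 𝒞[z] = 𝒩(M)
  odd : ∀ x ∈ M, x ≠ 1 → Out x

/-- The involutions outside the normalizer. -/
def Io (M : Subgroup G) : Set G := {t | orderOf t = 2 ∧ t ∉ 𝒩(M)}

namespace Lg

variable (h : Lg M z)
include h

theorem eq_one (hu : orderOf u = 2) (hy : y ∈ M) (e : u * y = y * u) : y = 1 :=
  by_contra fun h1 => out_iff.1 (h.odd y hy h1) u hu (mem_cent1.2 e)

theorem inv (hu : orderOf u = 2) (hn : u ∈ 𝒩(M)) (hy : y ∈ M) : u * y * u⁻¹ = y⁻¹ :=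
  inverts_of_fpf (mul_self_of_orderOf_two hu) hn (fun _ hy e => h.eq_one hu hy (mul_inv_eq_iff_eq_mul.1 e)) hy

theorem comm : IsMulCommutative M := comm_of_inverts fun _ => h.inv h.hz h.zN

theorem mul_comm' (hx : x ∈ M) (hy : y ∈ M) : x * y = y * x := cents_iff.1 (abelian_iff.1 h.comm) x hx y hy

theorem odd_ord (hy : y ∈ M) : Odd (orderOf y) := by
  by_cases h1 : y = 1
  · simp [h1]
  · exact (h.odd y hy h1).odd (cent1id y)

theorem exists_mul (hg : g ∈ 𝒩(M)) : ∃ a ∈ M, ∃ b ∈ 𝒩(M) ⊓ 𝒞[z], a * b = g :=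
  (mem_sup_norm_l inf_le_left).1 (h.fac.ge hg)

theorem inf_eq : M ⊓ (𝒩(M) ⊓ 𝒞[z]) = ⊥ :=
  eq_bot_iff.2 fun _ hy => h.eq_one h.hz hy.1 (mem_cent1.1 hy.2.2).symm

theorem mul_mem (h0 : M ≠ ⊥) (hu : orderOf u = 2) (hn : u ∈ 𝒩(M)) : u * z ∈ M := by
  obtain ⟨a, ha, b, hb, rfl⟩ := h.exists_mul hn
  obtain ⟨x, hx, h1⟩ := exists_ne_one_of_ne_bot h0
  have h2 : b * b = 1 := h.inf_eq.le ⟨by
    have := M.mul_mem (M.inv_mem (conj_mem_of_mem_norm hb.1 ha)) (M.inv_mem ha)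
    rwa [show (b * a * b⁻¹)⁻¹ * a⁻¹ = b * b by
      rw [show b * b = (b * a * b⁻¹)⁻¹ * a⁻¹ * (a * b * (a * b)) by group, mul_self_of_orderOf_two hu, mul_one]] at this, Subgroup.mul_mem _ hb hb⟩
  have h3 : b * z ∈ 𝒞[x] := mem_cent1.2 (mul_inv_eq_iff_eq_mul.1 (by
    have e := h.inv hu hn (inv_mem hx)
    rw [show b * z * x * (b * z)⁻¹ = a⁻¹ * (a * b * (z * x * z⁻¹) * (a * b)⁻¹) * a by group, h.inv h.hz h.zN hx, e,
      inv_inv, mul_assoc, h.mul_comm' hx ha, inv_mul_cancel_left]))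
  rw [mul_assoc, eq_one_of_odd ((h.odd x hx h1).odd h3) (by
    rw [mul_assoc, ← mul_assoc z, ← mem_cent1.1 hb.2, mul_assoc, mul_self_of_orderOf_two h.hz, mul_one, h2]), mul_one]
  exact ha

theorem exists_conj (h0 : M ≠ ⊥) (hu : orderOf u = 2) (hn : u ∈ 𝒩(M)) : ∃ a ∈ M, a * u * a⁻¹ = z := by
  obtain ⟨k, hk⟩ := exists_pow_conj_of_odd (mul_self_of_orderOf_two hu) (mul_self_of_orderOf_two h.hz)
    (h.odd_ord (h.mul_mem h0 hu hn))
  exact ⟨_, pow_mem (h.mul_mem h0 hu hn) k, hk⟩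

theorem ord_mul (ha : a ∈ M) : orderOf (a * z) = 2 :=
  orderOf_eq_two (fun e => by
    have := h.odd_ord ha
    rw [eq_inv_of_mul_eq_one_left e, orderOf_inv, h.hz] at this
    exact absurd this (by decide)) (by
    rw [← inv_of_orderOf_two h.hz, mul_assoc, ← mul_assoc z⁻¹, inv_of_orderOf_two h.hz]
    nth_rewrite 2 [← inv_of_orderOf_two h.hz]
    rw [h.inv h.hz h.zN ha, mul_inv_cancel])

theorem uniq (ht : t ∈ Io M) (ha : a ∈ M) (e : orderOf (t * a) = 2) : a = 1 := by_contra fun h1 =>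
  ht.2 (h.ti a ha h1 t (by
    rw [inv_of_orderOf_two ht.1, eq_inv_of_mul_eq_one_left ((mul_assoc _ t a).trans (mul_self_of_orderOf_two e))]
    exact inv_mem ha))

theorem inj : Function.Injective fun p : Io M × M => (p.1 : G) * p.2 := by
  rintro ⟨t, a⟩ ⟨u, b⟩ e
  dsimp only at e
  have h1 := h.uniq t.2 (M.mul_mem a.2 (inv_mem b.2)) (by rw [← mul_assoc, e, mul_inv_cancel_right]; exact u.2.1)
  obtain rfl : a = b := Subtype.ext (mul_inv_eq_one.1 h1)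
  obtain rfl : t = u := Subtype.ext (mul_right_cancel e)
  rfl

theorem card_inv (h0 : M ≠ ⊥) : Nat.card {g : G // orderOf g = 2} = Nat.card (Io M) + Nat.card M := by
  rw [← Nat.card_sum]
  refine (Nat.card_congr (Equiv.ofBijective (Sum.elim (fun t => ⟨t.1, t.2.1⟩) fun a => ⟨_, h.ord_mul a.2⟩)
    ⟨Function.Injective.sumElim ?_ ?_ ?_, fun u => ?_⟩)).symm
  · exact fun t u e => Subtype.ext (Subtype.mk.inj e)
  · exact fun t u e => Subtype.ext (mul_right_cancel (Subtype.mk.inj e))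
  · exact fun t a e => t.2.2 ((Subtype.mk.inj e).symm ▸ Subgroup.mul_mem _ (normG M a.2) h.zN)
  by_cases hu : u.1 ∈ 𝒩(M)
  · exact ⟨.inr ⟨_, h.mul_mem h0 u.2 hu⟩, Subtype.ext (by simp [mul_assoc, mul_self_of_orderOf_two h.hz])⟩
  · exact ⟨.inl ⟨u, u.2, hu⟩, rfl⟩

theorem all (h0 : M ≠ ⊥) (hI : M.index < Nat.card {g : G // orderOf g = 2}) (g : G) (hg : g ∉ 𝒩(M)) :
    ∃ a ∈ M, orderOf (g * a) = 2 := by
  by_contra! hc
  have := Nat.card_le_card_of_injective _ (Function.Injective.sumElim h.inj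
    (g := fun p : M × M => (p.1 : G) * g * p.2) ?_ ?_)
  · rw [Nat.card_sum, Nat.card_prod, Nat.card_prod, ← M.card_mul_index] at this
    rw [h.card_inv h0] at hI
    nlinarith [cardG_pos M]
  · rintro ⟨a, b⟩ ⟨c, d⟩ e
    dsimp only at e
    obtain rfl : a = c := Subtype.ext (inv_mul_eq_one.1 (by_contra fun h1 => hg (inv_mem_iff.1
      (h.ti _ (M.mul_mem (inv_mem a.2) c.2) h1 _ (by
        rw [show g⁻¹ * ((a : G)⁻¹ * c) * g⁻¹⁻¹ = g⁻¹ * (a : G)⁻¹ * (c * g * d) * (d : G)⁻¹ by group, ← e]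
        simpa [mul_assoc] using M.mul_mem b.2 (inv_mem d.2))))))
    obtain rfl : b = d := Subtype.ext (mul_left_cancel e)
    rfl
  · rintro ⟨t, a⟩ ⟨b, c⟩ e
    refine hc _ (M.mul_mem (M.mul_mem c.2 (inv_mem a.2)) b.2) ?_
    rw [← t.2.1, ← BG.orderOf_conj (b : G), eq_mul_inv_of_mul_eq e]
    congr 1
    group

variable (hA : ∀ g ∉ 𝒩(M), ∃ a ∈ M, orderOf (g * a) = 2)
include hA

theorem card_eq : Nat.card G = Nat.card (Io M) * Nat.card M + Nat.card 𝒩(M) := by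
  rw [← Nat.card_prod, ← Nat.card_sum]
  refine (Nat.card_congr (Equiv.ofBijective _ ⟨Function.Injective.sumElim h.inj Subtype.val_injective
    fun p n e => p.1.2.2 ((Subgroup.mul_mem_cancel_right _ (normG M p.2.2)).1 (e ▸ n.2)), fun g => ?_⟩)).symm
  by_cases hg : g ∈ 𝒩(M)
  · exact ⟨.inr ⟨g, hg⟩, rfl⟩
  obtain ⟨a, ha, e⟩ := hA g hg
  exact ⟨.inl (⟨_, e, mt (Subgroup.mul_mem_cancel_right _ (normG M ha)).1 hg⟩, ⟨_, inv_mem ha⟩), by simp⟩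

theorem exists_cent {d : G} (hd : d ∈ 𝒩(M)) (hg : g ∈ 𝒞[d]) (hn : g ∉ 𝒩(M)) :
    ∃ a ∈ M, a ∈ 𝒞[d] ∧ orderOf (g * a) = 2 := by
  obtain ⟨a, ha, e⟩ := hA g hn
  refine ⟨a, ha, mem_cent1.2 (mul_inv_eq_iff_eq_mul.1 (inv_mul_eq_one.1 (h.uniq (t := g * a) ⟨e,
    mt (Subgroup.mul_mem_cancel_right _ (normG M ha)).1 hn⟩ (M.mul_mem (inv_mem ha) (conj_mem_of_mem_norm hd ha))
    ?_)).symm).symm, e⟩
  rw [← e, ← BG.orderOf_conj d (g * a), ← mul_assoc d, ← mem_cent1.1 hg]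
  congr 1
  group

theorem invol (hg : g ∈ 𝒞[z]) (hn : g ∉ 𝒩(M)) : orderOf g = 2 := by
  obtain ⟨a, ha, h1, e⟩ := h.exists_cent hA h.zN hg hn
  rwa [h.eq_one h.hz ha (mem_cent1.1 h1).symm, mul_one] at e

theorem inverts (hg : g ∈ 𝒞[z]) (hn : g ∉ 𝒩(M)) (hx : x ∈ 𝒩(M) ⊓ 𝒞[z]) : g * x * g⁻¹ = x⁻¹ := by
  rw [inv_of_orderOf_two (h.invol hA hg hn)]
  exact eq_inv_of_mul_eq_one_left ((mul_assoc _ g x).trans (mul_self_of_orderOf_two (h.invol hA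
    (Subgroup.mul_mem _ hg hx.2) (mt (Subgroup.mul_mem_cancel_right _ hx.1).1 hn))))

theorem exists_comm {d : G} (hd : d ∈ 𝒩(M) ⊓ 𝒞[z]) (ht : t ∈ Io M) (htd : t ∈ 𝒞[d]) :
    ∃ a ∈ M, a ∈ 𝒞[d] ∧ a * t * a⁻¹ ∈ 𝒞[z] := by
  obtain ⟨b, hb, hbd, e⟩ := h.exists_cent hA hd.1 (Subgroup.mul_mem _ htd (cent1C.1 hd.2))
    (mt (Subgroup.mul_mem_cancel_right _ h.zN).1 ht.2)
  have h1 : orderOf (z * b) = 2 := by
    rw [← h.ord_mul hb, ← BG.orderOf_conj b]; congr 1; group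
  have h2 : z * b * z ∈ M := by
    nth_rewrite 2 [← inv_of_orderOf_two h.hz]
    exact conj_mem_of_mem_norm h.zN hb
  obtain ⟨k, hk⟩ := exists_pow_conj_of_odd (mul_self_of_orderOf_two h1) (mul_self_of_orderOf_two h.hz) (h.odd_ord h2)
  refine ⟨_, pow_mem h2 k, pow_mem (Subgroup.mul_mem _ (Subgroup.mul_mem _ (cent1C.1 hd.2) hbd) (cent1C.1 hd.2)) k, ?_⟩
  nth_rewrite 1 [← hk]
  rw [← cj_cent1, mem_cj, show ∀ c : G, c⁻¹ * (c * t * c⁻¹) * c = t by intro c; group, mem_cent1,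
    ← inv_of_orderOf_two (x := t * (z * b)) (mul_assoc t z b ▸ e), mul_inv_rev, inv_of_orderOf_two h1, inv_of_orderOf_two ht.1]

theorem exists_out {d : G} (hd : d ∈ 𝒩(M) ⊓ 𝒞[z]) (hg : g ∈ 𝒞[d]) (hn : g ∉ 𝒩(M)) :
    ∃ g ∈ 𝒞[z], g ∉ 𝒩(M) ∧ g ∈ 𝒞[d] := by
  obtain ⟨a, ha, had, e⟩ := h.exists_cent hA hd.1 hg hn
  have h1 := mt (Subgroup.mul_mem_cancel_right _ (normG M ha)).1 hn
  obtain ⟨b, hb, hbd, e'⟩ := h.exists_comm hA hd ⟨e, h1⟩ (Subgroup.mul_mem _ hg had)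
  exact ⟨_, e', by rwa [Subgroup.mul_mem_cancel_right _ (normG M (inv_mem hb)),
    Subgroup.mul_mem_cancel_left _ (normG M hb)],
    Subgroup.mul_mem _ (Subgroup.mul_mem _ hbd (Subgroup.mul_mem _ hg had)) (inv_mem hbd)⟩

theorem selfCent (h0 : M ≠ ⊥) (hg : g ∈ 𝒞[z]) (hn : g ∉ 𝒩(M)) : SelfCent M := fun x hx h1 => by
  refine le_antisymm (fun y hy => ?_) fun y hy => mem_cent1.2 (h.mul_comm' hy hx)
  obtain ⟨a, ha, d, hd, rfl⟩ := h.exists_mul (h.ti x hx h1 y (by rwa [mem_cent1.1 hy, mul_inv_cancel_right]))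
  have h2 := (Subgroup.mul_mem_cancel_left _ (mem_cent1.2 (h.mul_comm' ha hx))).1 hy
  suffices d = 1 by simpa [this]
  refine eq_one_of_odd ((h.odd x hx h1).odd h2) (by_contra fun h3 => hn (h.ti x hx h1 g ?_))
  have h4 : g * x * g⁻¹ ∈ 𝒩(M) := by_contra fun h4 => by
    obtain ⟨k, hk, hkn, hkd⟩ := h.exists_out hA hd (g := g * x * g⁻¹) (by
      have : g * x * g⁻¹ ∈ 𝒞[g * d⁻¹ * g⁻¹] := by
        rw [← cj_cent1, mem_cj]; simpa [mul_assoc] using cent1C.1 (inv_mem h2)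
      rwa [h.inverts hA hg hn (inv_mem hd), inv_inv] at this) h4
    have := h.inverts hA hk hkn hd
    rw [mem_cent1.1 hkd, mul_inv_cancel_right] at this
    exact h3 (mul_eq_one_iff_eq_inv.2 this)
  have h5 : orderOf (g * x * g⁻¹ * z) = 2 := by
    rw [← h.ord_mul hx, ← BG.orderOf_conj g (x * z), ← mul_assoc g, mul_assoc _ z, ← mem_cent1.1 (inv_mem hg), ← mul_assoc]
  simpa [mul_assoc, mul_self_of_orderOf_two h.hz] using h.mul_mem h0 h5 (Subgroup.mul_mem _ h4 h.zN)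

theorem card_Io : Nat.card (Io M) = ((𝒞[z] : Set G) \ 𝒩(M)).ncard * Nat.card M := by
  rw [← Nat.card_coe_set_eq, ← Nat.card_prod]
  refine (Nat.card_congr (Equiv.ofBijective (fun p => ⟨p.2 * p.1 * (p.2 : G)⁻¹, (BG.orderOf_conj ..).trans
    (h.invol hA p.1.2.1 p.1.2.2), by
      rw [Subgroup.mul_mem_cancel_right _ (normG M (inv_mem p.2.2)), Subgroup.mul_mem_cancel_left _ (normG M p.2.2)]
      exact p.1.2.2⟩) ⟨?_, fun t => ?_⟩)).symm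
  · rintro ⟨g, a⟩ ⟨k, b⟩ e
    replace e : (a : G) * g * (a : G)⁻¹ = b * k * (b : G)⁻¹ := congrArg Subtype.val e
    have hc := M.mul_mem (inv_mem a.2) b.2
    have h1 : (g : G) ∈ 𝒞[((a : G)⁻¹ * b) * z * ((a : G)⁻¹ * b)⁻¹] := by
      rw [← cj_cent1, mem_cj, show ((a : G)⁻¹ * b)⁻¹ * g * ((a : G)⁻¹ * b) = (b : G)⁻¹ * (a * g * (a : G)⁻¹) * b by
        group, e]
      simpa [mul_assoc] using k.2.1
    have h2 := mem_cent1.1 (Subgroup.mul_mem _ (cent1C.1 h1) (inv_mem (cent1C.1 g.2.1)))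
    rw [mul_assoc _ z, mul_assoc _ (z * _), h.inv h.hz h.zN (inv_mem hc), inv_inv] at h2
    obtain rfl : a = b := Subtype.ext (inv_mul_eq_one.1 (eq_one_of_odd (h.odd_ord hc)
      (h.eq_one (h.invol hA g.2.1 g.2.2) (M.mul_mem hc hc) h2.symm)))
    obtain rfl : g = k := Subtype.ext (by simpa using e)
    rfl
  obtain ⟨a, ha, -, e⟩ := h.exists_comm hA (one_mem _) t.2 (mem_cent1.2 (by simp))
  refine ⟨(⟨_, e, ?_⟩, ⟨_, inv_mem ha⟩), Subtype.ext (by simp [mul_assoc])⟩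
  rw [SetLike.mem_coe, Subgroup.mul_mem_cancel_right _ (normG M (inv_mem ha)),
    Subgroup.mul_mem_cancel_left _ (normG M ha)]
  exact t.2.2

end Lg

end CfsgLib.CCZ
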